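import Groth.Prelude.Def_Found
import Mathlib.RingTheory.Spectrum.Prime.Topology
import Mathlib.RingTheory.Spectrum.Prime.RingHom
import Mathlib.RingTheory.Localization.Ideal
import Mathlib.RingTheory.Ideal.MinimalPrime.Basic

/-! Order-theoretic transfer lemmas for the catenary property (helper14). -/

set_option autoImplicit false

namespace Groth.Agent.Lib.Helper14

universe u v

/-- The order-theoretic content of `CAlg.IsCatenary`. -/
def CatOrder (X : Type u) [Preorder X] : Prop :=
  (∀ p q : X, p ≤ q → ∃ n : ℕ, ∀ s : LTSeries X,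
      s.head = p → s.last = q → s.length ≤ n) ∧
  ∀ s t : LTSeries X, s.head = t.head → s.last = t.last →
    (∀ i : Fin s.length, s (Fin.castSucc i) ⋖ s (Fin.succ i)) →
    (∀ i : Fin t.length, t (Fin.castSucc i) ⋖ t (Fin.succ i)) →
    s.length = t.length

theorem isCatenary_iff_catOrder (R : Type u) [CommRing R] :
    CAlg.IsCatenary R ↔ CatOrder (PrimeSpectrum R) := Iff.rfl

section

variable {α : Type u} {β : Type v} [PartialOrder α] [PartialOrder β] (f : α → β)
  (hf : ∀ a b, f a ≤ f b ↔ a ≤ b)

include hf

theorem strictMono_of_le_iff : StrictMono f := fun a b hab =>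
  lt_of_le_not_ge ((hf a b).mpr hab.le) (fun h' => hab.not_ge ((hf b a).mp h'))

theorem lt_iff_of_le_iff (a b : α) : f a < f b ↔ a < b := by
  rw [lt_iff_le_not_ge, lt_iff_le_not_ge, hf, hf]

theorem injective_of_le_iff : Function.Injective f := fun a b hab =>
  le_antisymm ((hf a b).mp hab.le) ((hf b a).mp hab.ge)

/-- Covering relations are preserved by an order embedding with convex range. -/
theorem covBy_map (hconv : ∀ a b x, f a ≤ x → x ≤ f b → ∃ c, f c = x) (a b : α) (hab : a ⋖ b) :
    f a ⋖ f b := by
  refine ⟨(lt_iff_of_le_iff f hf a b).mpr hab.1, fun x hax hxb => ?_⟩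
  obtain ⟨c, rfl⟩ := hconv a b x hax.le hxb.le
  exact hab.2 ((lt_iff_of_le_iff f hf a c).mp hax) ((lt_iff_of_le_iff f hf c b).mp hxb)

/-- Covering relations are reflected. -/
theorem covBy_of_map (a b : α) (hab : f a ⋖ f b) : a ⋖ b := by
  refine ⟨(lt_iff_of_le_iff f hf a b).mp hab.1, fun c hac hcb => ?_⟩
  exact hab.2 ((lt_iff_of_le_iff f hf a c).mpr hac) ((lt_iff_of_le_iff f hf c b).mpr hcb)

/-- The catenary property passes to a convex subposet. -/
theorem catOrder_of_embedding (hconv : ∀ a b x, f a ≤ x → x ≤ f b → ∃ c, f c = x)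
    (h : CatOrder β) : CatOrder α := by
  have hsm := strictMono_of_le_iff f hf
  constructor
  · intro p q hpq
    obtain ⟨n, hn⟩ := h.1 (f p) (f q) ((hf p q).mpr hpq)
    refine ⟨n, fun s hs1 hs2 => ?_⟩
    have := hn (s.map f hsm) (by simp [hs1]) (by simp [hs2])
    simpa using this
  · intro s t h1 h2 hs ht
    have := h.2 (s.map f hsm) (t.map f hsm) (by simp [h1]) (by simp [h2])
      (fun i => covBy_map f hf hconv _ _ (hs i))
      (fun i => covBy_map f hf hconv _ _ (ht i))
    simpa using this

omit hf [PartialOrder α] in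
theorem head_le_apply (a : α) (s : LTSeries β) (hs : s.head = f a) (i : Fin (s.length + 1)) :
    f a ≤ s i := by
  rw [← hs]; exact s.monotone (Fin.zero_le i)

/-- Lift an `LTSeries` of `β` starting in the upward closed range of `f`. -/
noncomputable def liftSeries (hup : ∀ a x, f a ≤ x → ∃ c, f c = x) (a : α) (s : LTSeries β)
    (hs : s.head = f a) : LTSeries α :=
  LTSeries.mk s.length
    (fun i => (hup a (s i) (head_le_apply f a s hs i)).choose)
    (by
      intro i j hij
      rw [← lt_iff_of_le_iff f hf]
      rw [(hup a (s i) (head_le_apply f a s hs i)).choose_spec,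
        (hup a (s j) (head_le_apply f a s hs j)).choose_spec]
      exact s.strictMono hij)

theorem liftSeries_apply (hup : ∀ a x, f a ≤ x → ∃ c, f c = x) (a : α) (s : LTSeries β)
    (hs : s.head = f a) (i : Fin (s.length + 1)) :
    f (liftSeries f hf hup a s hs i) = s i :=
  (hup a (s i) (head_le_apply f a s hs i)).choose_spec

theorem liftSeries_length (hup : ∀ a x, f a ≤ x → ∃ c, f c = x) (a : α) (s : LTSeries β)
    (hs : s.head = f a) : (liftSeries f hf hup a s hs).length = s.length := rfl

theorem bound_of_up (hup : ∀ a x, f a ≤ x → ∃ c, f c = x) (h : CatOrder α) (a : α) (q : β)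
    (haq : f a ≤ q) : ∃ n : ℕ, ∀ s : LTSeries β, s.head = f a → s.last = q → s.length ≤ n := by
  obtain ⟨b, rfl⟩ := hup a q haq
  obtain ⟨n, hn⟩ := h.1 a b ((hf a b).mp haq)
  refine ⟨n, fun s hs1 hs2 => ?_⟩
  have e1 : (liftSeries f hf hup a s hs1).head = a := by
    apply injective_of_le_iff f hf
    exact (liftSeries_apply f hf hup a s hs1 0).trans hs1
  have e2 : (liftSeries f hf hup a s hs1).last = b := by
    apply injective_of_le_iff f hf
    exact (liftSeries_apply f hf hup a s hs1 (Fin.last _)).trans hs2
  exact hn _ e1 e2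

theorem sat_of_up (hup : ∀ a x, f a ≤ x → ∃ c, f c = x) (h : CatOrder α) (a : α)
    (s t : LTSeries β) (hs1 : s.head = f a) (ht1 : t.head = f a) (h2 : s.last = t.last)
    (hs : ∀ i : Fin s.length, s (Fin.castSucc i) ⋖ s (Fin.succ i))
    (ht : ∀ i : Fin t.length, t (Fin.castSucc i) ⋖ t (Fin.succ i)) :
    s.length = t.length := by
  let s' := liftSeries f hf hup a s hs1
  let t' := liftSeries f hf hup a t ht1
  have e1 : s'.head = t'.head := by
    apply injective_of_le_iff f hf
    exact (liftSeries_apply f hf hup a s hs1 0).trans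
      (hs1.trans (ht1.symm.trans (liftSeries_apply f hf hup a t ht1 0).symm))
  have e2 : s'.last = t'.last := by
    apply injective_of_le_iff f hf
    exact (liftSeries_apply f hf hup a s hs1 (Fin.last _)).trans
      (h2.trans (liftSeries_apply f hf hup a t ht1 (Fin.last _)).symm)
  refine h.2 s' t' e1 e2 (fun i => covBy_of_map f hf _ _ ?_) (fun i => covBy_of_map f hf _ _ ?_)
  · have := hs i
    rwa [← liftSeries_apply f hf hup a s hs1, ← liftSeries_apply f hf hup a s hs1] at this
  · have := ht i
    rwa [← liftSeries_apply f hf hup a t ht1, ← liftSeries_apply f hf hup a t ht1] at this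

end

end Groth.Agent.Lib.Helper14
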