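import Mathlib

/-! Helper lemmas (helper14): components of `s • m` for a graded module over an ℕ-graded ring. -/

namespace Groth.Agent.Lib.Helper14

open DirectSum

universe u

theorem proj_smul_of_mem {R S M : Type*} [CommRing R] [CommRing S] [Algebra R S]
    (𝒜 : ℕ → Submodule R S) [GradedAlgebra 𝒜]
    [AddCommGroup M] [Module R M] [Module S M] [IsScalarTower R S M]
    (ℳ : ℕ → Submodule R M) [DirectSum.Decomposition ℳ] [SetLike.GradedSMul 𝒜 ℳ]
    (s : S) {e : ℕ} {m : M} (hm : m ∈ ℳ e) (d : ℕ) :
    (decompose ℳ (s • m) d : M) = if e ≤ d then (decompose 𝒜 s (d - e) : S) • m else 0 := by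
  classical
  induction s using DirectSum.Decomposition.inductionOn 𝒜 with
  | zero => simp
  | @homogeneous i a =>
    obtain ⟨a, ha⟩ := a
    have hmem : a • m ∈ ℳ (i + e) := SetLike.GradedSMul.smul_mem ha hm
    by_cases hd : i + e = d
    · subst hd
      rw [decompose_of_mem_same ℳ hmem, if_pos (Nat.le_add_left _ _), Nat.add_sub_cancel,
        decompose_of_mem_same 𝒜 ha]
    · rw [decompose_of_mem_ne ℳ hmem hd]
      split_ifs with he
      · rw [decompose_of_mem_ne 𝒜 ha (by omega), zero_smul]
      · rfl
  | add a b ha hb =>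
    rw [add_smul, decompose_add, DirectSum.add_apply, Submodule.coe_add, ha, hb, decompose_add, DirectSum.add_apply,
      Submodule.coe_add, add_smul]
    split_ifs <;> simp

end Groth.Agent.Lib.Helper14
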