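import Mathlib.AlgebraicGeometry.Morphisms.QuasiCompact
import Mathlib.AlgebraicGeometry.AffineScheme
import Mathlib.RingTheory.Ideal.MinimalPrime.Localization

/-!
Helper lemmas (helper14): for a quasi-compact morphism of schemes, every point in the closure of the
image is a specialization of a point of the image.
-/

universe u

open AlgebraicGeometry CategoryTheory Topology

namespace Groth.Agent.Lib.Helper14.QcClosure

theorem mem_basicOpen_iff' {Y : Scheme.{u}} {V : Y.Opens} (hV : IsAffineOpen V) {y : Y}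
    (hy : y ∈ V) (a : Γ(Y, V)) :
    y ∈ Y.basicOpen a ↔ a ∉ (hV.primeIdealOf ⟨y, hy⟩).asIdeal := by
  have h1 := hV.fromSpec_primeIdealOf ⟨y, hy⟩
  have h2 := hV.fromSpec_preimage_basicOpen a
  have : y ∈ Y.basicOpen a ↔ hV.primeIdealOf ⟨y, hy⟩ ∈ hV.fromSpec ⁻¹ᵁ Y.basicOpen a := by
    change y ∈ Y.basicOpen a ↔ hV.fromSpec (hV.primeIdealOf ⟨y, hy⟩) ∈ Y.basicOpen a
    rw [h1]
  rw [this, h2]
  rfl

theorem exists_specializes_of_mem_closure_affine {X Y : Scheme.{u}} (f : X ⟶ Y) {V : Y.Opens}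
    (hV : IsAffineOpen V) {W : X.Opens} (hW : IsAffineOpen W) (hWV : W ≤ f ⁻¹ᵁ V) {y : Y}
    (hy : y ∈ V) (hcl : y ∈ closure (f '' (W : Set X))) :
    ∃ x ∈ W, f x ⤳ y := by
  set φ := (f.appLE V W hWV).hom
  set p := hV.primeIdealOf ⟨y, hy⟩
  have hker : RingHom.ker φ ≤ p.asIdeal := by
    intro a ha
    by_contra hap
    have hyD : y ∈ Y.basicOpen a := (mem_basicOpen_iff' hV hy a).mpr hap
    obtain ⟨z, hzD, ⟨x, hxW, rfl⟩⟩ := mem_closure_iff.mp hcl _ (Y.basicOpen a).isOpen hyD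
    have hx : x ∈ X.basicOpen (f.appLE V W hWV a) := by
      rw [Scheme.basicOpen_appLE]; exact ⟨hxW, hzD⟩
    rw [show (f.appLE V W hWV a) = 0 from ha, Scheme.basicOpen_zero] at hx
    exact hx
  obtain ⟨q, hq, hqp⟩ := Ideal.exists_minimalPrimes_le hker
  have hmin' : q ∈ ((⊥ : Ideal Γ(X, W)).comap φ).minimalPrimes := by
    rw [← RingHom.ker_eq_comap_bot]; exact hq
  obtain ⟨P, hP, -, hPq⟩ := Ideal.exists_comap_eq_of_mem_minimalPrimes φ q hmin'
  set x := hW.fromSpec ⟨P, hP⟩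
  have hxW : x ∈ W := by
    change x ∈ (W : Set X); rw [← hW.range_fromSpec]; exact ⟨_, rfl⟩
  refine ⟨x, hxW, ?_⟩
  have e1 : hW.primeIdealOf ⟨x, hxW⟩ = ⟨P, hP⟩ :=
    hW.fromSpec.isOpenEmbedding.injective (by rw [hW.fromSpec_primeIdealOf])
  have e2 := IsAffineOpen.comap_primeIdealOf_appLE V hV W hW hWV hxW
  rw [e1] at e2
  have hqprime : q.IsPrime := hq.1.1
  have e3 : hV.primeIdealOf ⟨f x, hWV hxW⟩ = ⟨q, hqprime⟩ := by
    rw [← e2]; ext1; exact hPq
  have e4 : f x = hV.fromSpec ⟨q, hqprime⟩ := by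
    have := congrArg hV.fromSpec e3
    rwa [hV.fromSpec_primeIdealOf] at this
  rw [e4]
  have hsp : (⟨q, hqprime⟩ : PrimeSpectrum Γ(Y, V)) ⤳ p :=
    (PrimeSpectrum.le_iff_specializes _ _).mp hqp
  have := hsp.map hV.fromSpec.continuous
  rwa [hV.fromSpec_primeIdealOf] at this

/-- For a quasi-compact morphism `f`, each point of the closure of the image of `f` is a
specialization of a point of the image. -/
theorem exists_specializes_of_mem_closure_range {X Y : Scheme.{u}} (f : X ⟶ Y) [QuasiCompact f]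
    {y : Y} (hy : y ∈ closure (Set.range f)) : ∃ x : X, f x ⤳ y := by
  obtain ⟨V, hV, hyV, -⟩ := exists_isAffineOpen_mem_and_subset (x := y) (U := ⊤) trivial
  have hc : IsCompact (f ⁻¹ᵁ V : Set X) :=
    QuasiCompact.isCompact_preimage (f := f) _ V.isOpen hV.isCompact
  obtain ⟨s, hs, e⟩ := isCompact_iff_finite_and_eq_biUnion_affineOpens.mp hc
  have hcl : y ∈ closure (⋃ W ∈ s, f '' ((W : X.Opens) : Set X)) := by
    have h2 : (V : Set Y) ∩ Set.range f ⊆ ⋃ W ∈ s, f '' ((W : X.Opens) : Set X) := by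
      rintro _ ⟨hxV, ⟨x, rfl⟩⟩
      have : x ∈ f ⁻¹ᵁ V := hxV
      rw [e] at this
      simp only [TopologicalSpace.Opens.mem_iSup] at this
      obtain ⟨W, hW, hxW⟩ := this
      exact Set.mem_biUnion hW ⟨x, hxW, rfl⟩
    exact closure_mono h2 (V.isOpen.inter_closure ⟨hyV, hy⟩)
  rw [hs.closure_biUnion] at hcl
  obtain ⟨W, hWs, hyW⟩ := Set.mem_iUnion₂.mp hcl
  have hWV : (W : X.Opens) ≤ f ⁻¹ᵁ V := by
    rw [e]; exact le_iSup₂ (f := fun i (_ : i ∈ s) => (i : X.Opens)) W hWs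
  obtain ⟨x, -, hx⟩ := exists_specializes_of_mem_closure_affine f hV W.2 hWV hyV hyW
  exact ⟨x, hx⟩

/-- For a quasi-compact morphism `f`, the closure of the image is the set of specializations of
points of the image. -/
theorem closure_range_eq {X Y : Scheme.{u}} (f : X ⟶ Y) [QuasiCompact f] :
    closure (Set.range f) = {y : Y | ∃ x : X, f x ⤳ y} := by
  ext y
  refine ⟨fun hy => exists_specializes_of_mem_closure_range f hy, ?_⟩
  rintro ⟨x, hx⟩
  exact hx.mem_closed isClosed_closure (subset_closure (Set.mem_range_self x))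

end Groth.Agent.Lib.Helper14.QcClosure
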