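import Mathlib

/-!
Helper lemmas (helper14): a geometrically reduced (separable) field extension essentially of finite
type is formally smooth.
-/

universe u

open TensorProduct

namespace Groth.Agent.Lib.Helper14.SepSmooth

variable (k K : Type u) [Field k] [Field K] [Algebra k K]

/-- If `K/k` is geometrically reduced and `k` has characteristic `p`, then `k`-linearly independent
finite families stay linearly independent after raising to the `p`-th power. -/
theorem linearIndepOn_pow_of_isGeometricallyReduced [Algebra.IsGeometricallyReduced k K]
    (p : ℕ) [hp : Fact p.Prime] [CharP k p] (s : Finset K)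
    (hli : LinearIndepOn k _root_.id (s : Set K)) :
    LinearIndepOn k (· ^ p) (s : Set K) := by
  classical
  set L := AlgebraicClosure k
  have hred : IsReduced (L ⊗[k] K) := (Algebra.isGeometricallyReduced_field_iff k K).mp inferInstance
  have hinj : Function.Injective (algebraMap k (L ⊗[k] K)) := by
    have h1 : Function.Injective (Algebra.TensorProduct.includeRight : K →ₐ[k] L ⊗[k] K) :=
      Algebra.TensorProduct.includeRight_injective (RingHom.injective _)
    have h2 : algebraMap k (L ⊗[k] K) =
        (Algebra.TensorProduct.includeRight : K →ₐ[k] L ⊗[k] K).toRingHom.comp (algebraMap k K) := by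
      ext x; simp
    rw [h2]
    exact h1.comp (algebraMap k K).injective
  have hchar : CharP (L ⊗[k] K) p := charP_of_injective_algebraMap hinj p
  rw [LinearIndepOn, Fintype.linearIndependent_iff]
  intro g hg i
  -- p-th roots of the coefficients
  have hroot : ∀ j : (s : Set K), ∃ d : L, d ^ p = algebraMap k L (g j) := fun j =>
    IsAlgClosed.exists_pow_nat_eq _ hp.out.pos
  choose d hd using hroot
  set z : L ⊗[k] K := ∑ j : (s : Set K), d j ⊗ₜ[k] (j : K) with hz
  have hzp : z ^ p = 0 := by
    rw [hz, sum_pow_char]
    simp only [Algebra.TensorProduct.tmul_pow, hd]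
    have : ∀ j : (s : Set K), algebraMap k L (g j) ⊗ₜ[k] ((j : K) ^ p) =
        (1 : L) ⊗ₜ[k] (g j • (j : K) ^ p) := by
      intro j
      rw [Algebra.algebraMap_eq_smul_one, TensorProduct.smul_tmul]
    simp only [this, ← TensorProduct.tmul_sum]
    rw [hg, TensorProduct.tmul_zero]
  have hz0 : z = 0 := hred.eq_zero z ⟨p, hzp⟩
  -- linear independence of `1 ⊗ j` over `L`
  let b := Module.Basis.extend hli
  let B := Algebra.TensorProduct.basis L b
  let ι' := hli.extend (Set.subset_univ _)
  let e : ↥(s : Set K) → ↥ι' := fun j => ⟨j.1, hli.subset_extend _ j.2⟩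
  have he : Function.Injective e := by
    intro x y hxy
    have h' := congrArg (fun t : ↥ι' => (t : K)) hxy
    exact Subtype.ext h'
  have hB : ∀ j : (s : Set K), B (e j) = (1 : L) ⊗ₜ[k] (j : K) := by
    intro j
    simp only [B, Algebra.TensorProduct.basis_apply, b, Module.Basis.extend_apply_self, e]
  have hzB : z = ∑ j : (s : Set K), d j • B (e j) := by
    rw [hz]
    refine Finset.sum_congr rfl fun j _ => ?_
    rw [hB, TensorProduct.smul_tmul', smul_eq_mul, mul_one]
  have hrepr : B.repr z (e i) = d i := by
    rw [hzB, map_sum]
    simp only [map_smul, Module.Basis.repr_self, Finsupp.smul_apply, Finsupp.coe_finsetSum,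
      Finset.sum_apply]
    rw [Finset.sum_eq_single i]
    · simp
    · intro j _ hji
      rw [Finsupp.single_apply, if_neg (fun h => hji (he h)), smul_zero]
    · intro h; exact absurd (Finset.mem_univ i) h
  rw [hz0, map_zero, Finsupp.zero_apply] at hrepr
  have : algebraMap k L (g i) = 0 := by
    rw [← hd i, ← hrepr, zero_pow hp.out.ne_zero]
  exact (algebraMap k L).injective (by rw [this, map_zero])

/-- A geometrically reduced field extension essentially of finite type is formally smooth. -/
theorem formallySmooth_of_isGeometricallyReduced [Algebra.EssFiniteType k K]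
    [Algebra.IsGeometricallyReduced k K] : Algebra.FormallySmooth k K := by
  obtain _ | ⟨p, hp, hpk⟩ := CharP.exists' k
  · infer_instance
  · have : ExpChar k p := .prime hp.out
    obtain ⟨s, hs, H⟩ := exists_isTranscendenceBasis_and_isSeparable_of_linearIndepOn_pow_of_essFiniteType
      p hp.out (fun s hs => linearIndepOn_pow_of_isGeometricallyReduced k K p s hs)
    have : Algebra.IsSeparable (↥(IntermediateField.adjoin k (Set.range ((↑) : s → K)))) K := by
      convert! H <;> simp
    exact .of_algebraicIndependent_of_isSeparable hs.1

end Groth.Agent.Lib.Helper14.SepSmooth
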