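import Groth.Prelude.Def_FlatCA
import Mathlib

/-! Helper lemmas (helper14) on weakly associated primes. -/

namespace Groth.Agent.Lib.Helper14

universe u

theorem localizedModule_smul_mk_eq_zero_iff {R : Type u} [CommRing R] (S : Submonoid R)
    {M : Type u} [AddCommGroup M] [Module R M] (r : R) (m : M) (s : S) :
    r • LocalizedModule.mk m s = 0 ↔ ∃ u : S, (u : R) • r • m = 0 := by
  rw [LocalizedModule.smul'_mk, ← LocalizedModule.zero_mk (1 : S), LocalizedModule.mk_eq]
  simp only [one_smul, smul_zero, Submonoid.smul_def]

/-- For a prime `p` disjoint from `S`, `p` is weakly associated to `M` iff it is weakly associated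
to the `R`-module `S⁻¹M`. -/
theorem mem_weakAss_iff_mem_weakAss_localizedModule {R : Type u} [CommRing R] (S : Submonoid R)
    (M : Type u) [AddCommGroup M] [Module R M] (p : Ideal R) [hp : p.IsPrime]
    (hS : Disjoint (S : Set R) (p : Set R)) :
    p ∈ FlatCA.weakAss R M ↔ p ∈ FlatCA.weakAss R (LocalizedModule S M) := by
  classical
  -- annihilator of `mk m s`
  have hJ : ∀ (m : M) (s : S) (r : R), r ∈ (Submodule.span R {LocalizedModule.mk m s}).annihilator ↔
      ∃ u : S, (u : R) • r • m = 0 := by
    intro m s r
    rw [Submodule.mem_annihilator_span_singleton, localizedModule_smul_mk_eq_zero_iff]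
  have hle : ∀ (m : M) (s : S), (Submodule.span R {m}).annihilator ≤
      (Submodule.span R {LocalizedModule.mk m s}).annihilator := by
    intro m s r hr
    rw [Submodule.mem_annihilator_span_singleton] at hr
    rw [hJ]
    exact ⟨1, by rw [hr, smul_zero]⟩
  -- for q prime disjoint from S containing ann m, q contains ann (mk m s)
  have hsub : ∀ (m : M) (s : S) (q : Ideal R), q.IsPrime → Disjoint (S : Set R) (q : Set R) →
      (Submodule.span R {m}).annihilator ≤ q →
      (Submodule.span R {LocalizedModule.mk m s}).annihilator ≤ q := by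
    intro m s q hq hqS hmq r hr
    rw [hJ] at hr
    obtain ⟨u, hu⟩ := hr
    have : (u : R) * r ∈ (Submodule.span R {m}).annihilator := by
      rw [Submodule.mem_annihilator_span_singleton, mul_smul]; exact hu
    rcases hq.mem_or_mem (hmq this) with h | h
    · exact absurd h (Set.disjoint_left.mp hqS u.2)
    · exact h
  constructor
  · rintro ⟨m, hm⟩
    refine ⟨LocalizedModule.mk m 1, ⟨⟨hp, hsub m 1 p hp hS hm.1.2⟩, ?_⟩⟩
    intro q hq hqp
    exact hm.2 ⟨hq.1, (hle m 1).trans hq.2⟩ hqp
  · rintro ⟨x, hx⟩
    induction x using LocalizedModule.induction_on with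
    | h m s =>
      refine ⟨m, ⟨⟨hp, (hle m s).trans hx.1.2⟩, ?_⟩⟩
      intro q hq hqp
      have hqS : Disjoint (S : Set R) (q : Set R) :=
        Set.disjoint_of_subset_right (fun x hx => hqp hx) hS
      exact hx.2 ⟨hq.1, hsub m s q hq.1 hqS hq.2⟩ hqp

/-- The `R`-annihilator of an element of `S⁻¹M` is the contraction of its `S⁻¹R`-annihilator. -/
theorem annihilator_localizedModule_eq_comap {R : Type u} [CommRing R] (S : Submonoid R)
    (M : Type u) [AddCommGroup M] [Module R M] (x : LocalizedModule S M) :
    (Submodule.span R {x}).annihilator = Ideal.comap (algebraMap R (Localization S))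
      (Submodule.span (Localization S) {x}).annihilator := by
  ext r
  rw [Ideal.mem_comap, Submodule.mem_annihilator_span_singleton,
    Submodule.mem_annihilator_span_singleton, algebraMap_smul]

end Groth.Agent.Lib.Helper14
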